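import Mathlib
import Cfsg.Agent.H238.SL2Key

/-!
# `SL₂` over an algebraically closed field with a Frobenius map (helper448)

* `hom_ext` : homomorphisms agreeing on `U`, `V`;
* `dec_zero`, `dec_ne` : the Bruhat decomposition;
* `diag_of_comm` : matrices commuting with the diagonal matrices;
* `exists_lang` : Lang's theorem for the diagonal matrices;
* `exists_map` : the fixed matrices.
-/

set_option autoImplicit false

namespace Cfsg.Agent.H448.Van.Rk

open Matrix Subgroup
open Cfsg.Agent.H238.SL2Key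

universe u v

variable {k : Type u} [Field k]

abbrev SL (k : Type u) [Field k] := SpecialLinearGroup (Fin 2) k

theorem det_eq (A : SL k) : mm A 0 0 * mm A 1 1 - mm A 0 1 * mm A 1 0 = 1 := by
  have := A.2
  rw [Matrix.det_fin_two] at this
  exact this

theorem eta (A : SL k) : mm A = !![mm A 0 0, mm A 0 1; mm A 1 0, mm A 1 1] := by
  ext i j
  fin_cases i <;> fin_cases j <;> rfl

/-- Bruhat decomposition, the small cell -/
theorem dec_zero {A : SL k} (h : mm A 1 0 = 0) : ∃ h0 : mm A 0 0 ≠ 0, A = U (mm A 0 1 * mm A 0 0) * H (mm A 0 0) h0 := by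
  have hd := det_eq A
  rw [h, mul_zero, sub_zero] at hd
  have h0 : mm A 0 0 ≠ 0 := left_ne_zero_of_mul_eq_one hd
  refine ⟨h0, ext2 ?_⟩
  rw [mm_mul, coe_U, coe_H]
  conv_lhs => rw [eta A, h]
  have h1 : mm A 1 1 = (mm A 0 0)⁻¹ := eq_inv_of_mul_eq_one_right hd
  rw [h1]
  ext i j
  fin_cases i <;> fin_cases j <;> simp [Matrix.mul_apply, Fin.sum_univ_two]
  field_simp

/-- Bruhat decomposition, the big cell -/
theorem dec_ne {A : SL k} (h : mm A 1 0 ≠ 0) :
    ∃ h0 : -(mm A 1 0)⁻¹ ≠ 0, A = U (mm A 0 0 / mm A 1 0) * H (-(mm A 1 0)⁻¹) h0 * N 1 * U (mm A 1 1 / mm A 1 0) := by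
  have hd := det_eq A
  have h0 : -(mm A 1 0)⁻¹ ≠ 0 := neg_ne_zero.2 (inv_ne_zero h)
  refine ⟨h0, ext2 ?_⟩
  rw [mm_mul, mm_mul, mm_mul, coe_U, coe_U, coe_H, coe_N one_ne_zero]
  conv_lhs => rw [eta A]
  ext i j
  fin_cases i <;> fin_cases j <;> simp [Matrix.mul_apply, Fin.sum_univ_two, h]
  · field_simp
    linear_combination (-1 : k) * hd
  · field_simp

theorem H_eq {s : k} (hs : s ≠ 0) : H s hs = N s * (N 1)⁻¹ := by
  have h := N_mul (s := (1 : k)) (z := s) one_ne_zero hs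
  rw [mul_one] at h
  exact h.symm

/-- homomorphisms agreeing on the root groups -/
theorem hom_ext {Y : Type v} [Group Y] {φ ψ : SL k →* Y} (hU : ∀ s, φ (U s) = ψ (U s)) (hV : ∀ s, φ (V s) = ψ (V s)) :
    φ = ψ := by
  have hN : ∀ s, φ (N s) = ψ (N s) := fun s => by
    unfold N
    rw [map_mul, map_mul, map_mul, map_mul, hU, hV]
  have hH : ∀ s hs, φ (H s hs) = ψ (H s hs) := fun s hs => by
    rw [H_eq hs, map_mul, map_mul, map_inv, map_inv, hN, hN]
  ext A
  by_cases h : mm A 1 0 = 0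
  · obtain ⟨h0, e⟩ := dec_zero h
    rw [e, map_mul, map_mul, hU, hH]
  · obtain ⟨h0, e⟩ := dec_ne h
    rw [e]
    simp only [map_mul, hU, hH, hN]

theorem N_one_conj (u : k) : (N 1)⁻¹ * U u * N 1 = V (-u) := by
  rw [mul_assoc, inv_mul_eq_iff_eq_mul]
  refine ext2 ?_
  rw [mm_mul, mm_mul, coe_N one_ne_zero, coe_U, coe_V]
  ext i j
  fin_cases i <;> fin_cases j <;> simp [Matrix.mul_apply, Fin.sum_univ_two]

theorem N_one_conj_H {c : k} (hc : c ≠ 0) : N 1 * H c hc * (N 1)⁻¹ = H c⁻¹ (inv_ne_zero hc) := by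
  rw [mul_inv_eq_iff_eq_mul]
  refine ext2 ?_
  rw [mm_mul, mm_mul, coe_N one_ne_zero, coe_H, coe_H]
  ext i j
  fin_cases i <;> fin_cases j <;> simp [Matrix.mul_apply, Fin.sum_univ_two]

theorem H_conj_U {c : k} (hc : c ≠ 0) (u : k) : H c hc * U u * (H c hc)⁻¹ = U (c ^ 2 * u) := by
  rw [mul_inv_eq_iff_eq_mul]
  refine ext2 ?_
  rw [mm_mul, mm_mul, coe_H, coe_U, coe_U]
  ext i j
  fin_cases i <;> fin_cases j <;> simp [Matrix.mul_apply, Fin.sum_univ_two]
  field_simp

theorem H_conj_V {c : k} (hc : c ≠ 0) (u : k) : H c hc * V u * (H c hc)⁻¹ = V ((c ^ 2)⁻¹ * u) := by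
  rw [mul_inv_eq_iff_eq_mul]
  refine ext2 ?_
  rw [mm_mul, mm_mul, coe_H, coe_V, coe_V]
  ext i j
  fin_cases i <;> fin_cases j <;> simp [Matrix.mul_apply, Fin.sum_univ_two]
  field_simp

theorem H_mul {a b : k} (ha : a ≠ 0) (hb : b ≠ 0) : H a ha * H b hb = H (a * b) (mul_ne_zero ha hb) := by
  refine ext2 ?_
  rw [mm_mul, coe_H, coe_H, coe_H]
  ext i j
  fin_cases i <;> fin_cases j <;> simp [Matrix.mul_apply, Fin.sum_univ_two, mul_comm]

theorem H_inv {a : k} (ha : a ≠ 0) : (H a ha)⁻¹ = H a⁻¹ (inv_ne_zero ha) := by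
  rw [inv_eq_iff_mul_eq_one, H_mul]
  refine ext2 ?_
  rw [coe_H, mm_one]
  ext i j
  fin_cases i <;> fin_cases j <;> simp [ha]

theorem U_inj {a b : k} (h : U a = U b) : a = b := by
  have h1 : mm (U a) 0 1 = mm (U b) 0 1 := by rw [h]
  exact h1

theorem V_inj {a b : k} (h : V a = V b) : a = b := by
  have h1 : mm (V a) 1 0 = mm (V b) 1 0 := by rw [h]
  exact h1

/-- matrices commuting with a diagonal matrix -/
theorem diag_of_comm {c : k} (hc : c ≠ 0) (hc2 : c * c ≠ 1) {A : SL k} (h : A * H c hc = H c hc * A) :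
    ∃ (a : k) (ha : a ≠ 0), A = H a ha := by
  have h1 : mm A * !![c, 0; 0, c⁻¹] = !![c, 0; 0, c⁻¹] * mm A := by
    have := congrArg mm h
    rwa [mm_mul, mm_mul, coe_H] at this
  have h01 := congrFun (congrFun h1 0) 1
  have h10 := congrFun (congrFun h1 1) 0
  simp [Matrix.mul_apply, Fin.sum_univ_two] at h01 h10
  have hcc : c - c⁻¹ ≠ 0 := by
    intro h0
    apply hc2
    have h2 : c = c⁻¹ := sub_eq_zero.1 h0
    nth_rewrite 2 [h2]
    exact mul_inv_cancel₀ hc
  have e01 : mm A 0 1 = 0 := by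
    have : (c - c⁻¹) * mm A 0 1 = 0 := by linear_combination (-1 : k) * h01
    exact (mul_eq_zero.1 this).resolve_left hcc
  have e10 : mm A 1 0 = 0 := by
    have : (c - c⁻¹) * mm A 1 0 = 0 := by linear_combination h10
    exact (mul_eq_zero.1 this).resolve_left hcc
  obtain ⟨h0, e⟩ := dec_zero e10
  refine ⟨_, h0, ?_⟩
  rw [e01, zero_mul, U_zero, one_mul] at e
  exact e

theorem exists_sq_ne [Infinite k] : ∃ c : k, c ≠ 0 ∧ c * c ≠ 1 := by
  have hp : (Polynomial.X * (Polynomial.X ^ 2 - 1) : Polynomial k) ≠ 0 := by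
    refine mul_ne_zero Polynomial.X_ne_zero ?_
    exact Polynomial.X_pow_sub_C_ne_zero (by norm_num) (1 : k)
  obtain ⟨z, hz⟩ := Polynomial.exists_eval_ne_zero_of_natDegree_lt_card _ hp (by
    have : Cardinal.mk k ≥ Cardinal.aleph0 := Cardinal.aleph0_le_mk k
    exact lt_of_lt_of_le (Cardinal.natCast_lt_aleph0) this)
  rw [Polynomial.eval_mul, Polynomial.eval_X, Polynomial.eval_sub, Polynomial.eval_pow, Polynomial.eval_X,
    Polynomial.eval_one] at hz
  refine ⟨z, left_ne_zero_of_mul hz, fun h => right_ne_zero_of_mul hz ?_⟩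
  rw [sq, h, sub_self]

/-! ### the Frobenius map -/

section Frob

variable {l : Type v} [Field l] (g : k →+* l)

theorem mm_map (A : SL k) (i j : Fin 2) : mm (SpecialLinearGroup.map g A) i j = g (mm A i j) := rfl

theorem map_U (s : k) : SpecialLinearGroup.map g (U s) = U (g s) := by
  refine ext2 ?_
  ext i j
  rw [mm_map]
  fin_cases i <;> fin_cases j <;> simp [coe_U]

theorem map_V (s : k) : SpecialLinearGroup.map g (V s) = V (g s) := by
  refine ext2 ?_
  ext i j
  rw [mm_map]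
  fin_cases i <;> fin_cases j <;> simp [coe_V]

theorem map_H {s : k} (hs : s ≠ 0) : SpecialLinearGroup.map g (H s hs) = H (g s) ((map_ne_zero g).2 hs) := by
  refine ext2 ?_
  ext i j
  rw [mm_map]
  fin_cases i <;> fin_cases j <;> simp [coe_H]

theorem map_N : SpecialLinearGroup.map g (N (1 : k)) = N 1 := by
  unfold N
  rw [map_mul, map_mul, map_U, map_V, map_one, map_neg, map_inv₀, map_one]

theorem map_inj : Function.Injective (SpecialLinearGroup.map (n := Fin 2) g) := by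
  intro A B h
  refine ext2 ?_
  ext i j
  apply g.injective
  rw [← mm_map, ← mm_map, h]

end Frob

section Fix

variable {fr : k →+* k} {q : ℕ} (hfr : ∀ x, fr x = x ^ q)

include hfr

/-- **Lang's theorem for the diagonal matrices.** -/
theorem exists_lang [IsAlgClosed k] (hq : 2 ≤ q) {A : SL k} {b : k} (hb : b ≠ 0)
    (h : A⁻¹ * SpecialLinearGroup.map fr A = H b hb) :
    ∃ (c : k) (hc : c ≠ 0), c ^ (q - 1) = b ∧
      SpecialLinearGroup.map fr (A * (H c hc)⁻¹) = A * (H c hc)⁻¹ := by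
  obtain ⟨c, hc⟩ := IsAlgClosed.exists_pow_nat_eq b (n := q - 1) (by omega)
  have hc0 : c ≠ 0 := by
    rintro rfl
    rw [zero_pow (by omega)] at hc
    exact hb hc.symm
  refine ⟨c, hc0, hc, ?_⟩
  have h1 : SpecialLinearGroup.map fr A = A * H b hb := by rw [← h]; group
  rw [map_mul, map_inv, h1, map_H]
  have h2 : H (fr c) ((map_ne_zero fr).2 hc0) = H b hb * H c hc0 := by
    rw [H_mul]
    congr 1
    rw [hfr, ← hc, ← pow_succ]
    congr 1
    omega
  have h3 : H b hb * H c hc0 = H c hc0 * H b hb := by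
    rw [H_mul, H_mul]
    congr 1
    exact mul_comm _ _
  rw [h2, h3]
  group

variable {F : Type v} [Field F] {f : F →+* k} (hfix : ∀ x : k, x ^ q = x ↔ x ∈ Set.range f)

include hfix

/-- the fixed matrices -/
theorem exists_map {A : SL k} (h : SpecialLinearGroup.map fr A = A) : ∃ A' : SL F, SpecialLinearGroup.map f A' = A := by
  have h1 : ∀ i j, mm A i j ∈ Set.range f := fun i j => by
    rw [← hfix, ← hfr]
    have := mm_map fr A i j
    rw [h] at this
    exact this.symm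
  choose B hB using h1
  have hdet : (Matrix.of B).det = 1 := by
    apply f.injective
    rw [Matrix.det_fin_two, map_sub, map_mul, map_mul, map_one]
    simp only [Matrix.of_apply, hB]
    exact det_eq A
  let A' : SL F := ⟨Matrix.of B, hdet⟩
  refine ⟨A', ext2 ?_⟩
  ext i j
  exact hB i j

omit hfix in
theorem fix_map (hfr' : ∀ a : F, f a ^ q = f a) (A : SL F) :
    SpecialLinearGroup.map fr (SpecialLinearGroup.map f A) = SpecialLinearGroup.map f A := by
  refine ext2 ?_
  ext i j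
  rw [mm_map, mm_map, hfr]
  exact hfr' _

end Fix

end Cfsg.Agent.H448.Van.Rk
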